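import Mathlib
set_option linter.all false

/-!
# The regular module lemma (part 9F of S4259), group part

`P` has commutators central, fixed by `B`, and no elements of order `2`; `B` has exponent `2`.
-/

set_option autoImplicit false
set_option linter.unusedSectionVars false
set_option linter.unusedVariables false

namespace Cfsg.Agent.H557.Free

open scoped commutatorElement

theorem aux {P : Type*} [Group P] {z z1 : P} (h1 : z * z1 * (z1 * z) = 1) (h2 : z * z1⁻¹ * (z1⁻¹ * z) = 1) :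
    (z * z) * (z * z) = 1 := by
  have h4 : z1 * z1 = z⁻¹ * z⁻¹ := by
    have h5 : z1 * z1 = z⁻¹ * (z * z1 * (z1 * z)) * z⁻¹ := by group
    rw [h5, h1]; group
  have h6 : z1⁻¹ * z1⁻¹ = z⁻¹ * z⁻¹ := by
    have h5 : z1⁻¹ * z1⁻¹ = z⁻¹ * (z * z1⁻¹ * (z1⁻¹ * z)) * z⁻¹ := by group
    rw [h5, h2]; group
  have h7 : z * z = z1 * z1 := by
    have h8 := congrArg (·⁻¹) h6
    simpa using h8.symm
  have h9 : z * z = z⁻¹ * z⁻¹ := h7.trans h4
  calc z * z * (z * z) = z * z * (z⁻¹ * z⁻¹) := by rw [← h9]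
    _ = 1 := by group

section Abs

variable {P B : Type*} [Group P] [Group B] (act : B →* MulAut P)
  (hodd : ∀ a : P, a * a = 1 → a = 1)
  (hcen : ∀ a a' c : P, ⁅a, a'⁆ * c = c * ⁅a, a'⁆)
  (hfix : ∀ (b : B) (a a' : P), act b ⁅a, a'⁆ = ⁅a, a'⁆)
  (hB2 : ∀ b : B, b * b = 1)

include hcen in
theorem c_mul_left (a b c : P) : ⁅a * b, c⁆ = ⁅a, c⁆ * ⁅b, c⁆ := by
  have h1 : ⁅a * b, c⁆ = a * ⁅b, c⁆ * a⁻¹ * ⁅a, c⁆ := by
    simp only [commutatorElement_def]; group
  rw [h1, ← hcen b c a, mul_inv_cancel_right, hcen b c]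

theorem c_swap (a b : P) : ⁅b, a⁆ = ⁅a, b⁆⁻¹ := (commutatorElement_inv a b).symm

include hcen in
theorem c_mul_right (a b c : P) : ⁅a, b * c⁆ = ⁅a, b⁆ * ⁅a, c⁆ := by
  rw [c_swap (b * c) a, c_mul_left hcen, c_swap a b, c_swap a c, mul_inv_rev, inv_inv, inv_inv, hcen]

include hcen in
theorem c_inv_left (a b : P) : ⁅a⁻¹, b⁆ = ⁅a, b⁆⁻¹ := by
  have h1 := c_mul_left hcen a⁻¹ a b
  rw [inv_mul_cancel, commutatorElement_one_left] at h1
  exact eq_inv_of_mul_eq_one_left h1.symm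

include hcen in
theorem c_inv_right (a b : P) : ⁅a, b⁻¹⁆ = ⁅a, b⁆⁻¹ := by
  rw [c_swap b⁻¹ a, c_inv_left hcen, inv_inv, c_swap a b]

include hfix in
theorem c_act (b : B) (a a' : P) : ⁅act b a, act b a'⁆ = ⁅a, a'⁆ := by
  rw [← map_commutatorElement, hfix]

include hB2 in
theorem act_act (b : B) (a : P) : act b (act b a) = a := by
  rw [← MulAut.mul_apply, ← map_mul, hB2, map_one, MulAut.one_apply]

include hB2 in
theorem B_comm (b c : B) : b * c = c * b := by
  have h1 : ∀ x : B, x⁻¹ = x := fun x => inv_eq_of_mul_eq_one_left (hB2 x)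
  have h2 := h1 (b * c)
  rw [mul_inv_rev, h1, h1] at h2
  exact h2.symm

include hB2 in
theorem act_comm (b c : B) (a : P) : act b (act c a) = act c (act b a) := by
  rw [← MulAut.mul_apply, ← MulAut.mul_apply, ← map_mul, ← map_mul, B_comm hB2]

include hfix hB2 in
theorem c_act' (b : B) (a a' : P) : ⁅act b a, a'⁆ = ⁅a, act b a'⁆ := by
  rw [← c_act act hfix b (act b a) a', act_act act hB2]

include hodd hcen hfix hB2 in
theorem self_comm (c : B) (a : P) : Commute a (act c a) := by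
  refine commutatorElement_eq_one_iff_mul_comm.1 ?_
  apply hodd
  have h1 : ⁅a, act c a⁆ = ⁅a, act c a⁆⁻¹ := by
    conv_lhs => rw [← c_act' act hfix hB2]
    rw [c_swap]
  conv_lhs => rw [h1]
  rw [← h1]
  conv_lhs =>
    congr
    rw [h1]
  exact inv_mul_cancel _

include hodd hcen hfix hB2 in
theorem step {u y : P} (h : ⁅u, y⁆ ≠ 1) (c : B) : ⁅u * act c u, y * act c y⁆ ≠ 1 ∨
    ⁅u * (act c u)⁻¹, y * (act c y)⁻¹⁆ ≠ 1 := by
  by_contra hcon
  push Not at hcon
  obtain ⟨h1, h2⟩ := hcon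
  rw [c_mul_left hcen, c_mul_right hcen, c_mul_right hcen, c_act act hfix, c_act' act hfix hB2] at h1
  rw [c_mul_left hcen, c_mul_right hcen, c_mul_right hcen, c_inv_left hcen, c_inv_right hcen, c_inv_left hcen,
    c_inv_right hcen, c_act act hfix, c_act' act hfix hB2, inv_inv] at h2
  set z := ⁅u, y⁆ with hz
  set z1 := ⁅u, act c y⁆ with hz1
  exact h (hodd _ (hodd _ (aux h1 h2)))

include hodd hcen hfix hB2 in
/-- the pair -/
theorem exists_pair {b : B} {a a' : P} (h : ⁅act b a * a⁻¹, a'⁆ ≠ 1) (T : Finset B) :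
    ∃ u y : P, ⁅u, y⁆ ≠ 1 ∧ act b u = u⁻¹ ∧
      ∀ c ∈ T, ∃ ε : ℤˣ, act c u = u ^ ((ε : ℤˣ) : ℤ) ∧ act c y = y ^ ((ε : ℤˣ) : ℤ) := by
  classical
  induction T using Finset.induction_on with
  | empty =>
    refine ⟨act b a * a⁻¹, a', h, ?_, fun c hc => absurd hc (Finset.notMem_empty c)⟩
    rw [map_mul, map_inv, act_act act hB2, mul_inv_rev, inv_inv]
  | insert c T hc ih =>
    obtain ⟨u, y, h1, h2, h3⟩ := ih
    have hu : Commute u (act c u) := self_comm act hodd hcen hfix hB2 c u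
    have hy : Commute y (act c y) := self_comm act hodd hcen hfix hB2 c y
    have key : ∀ (d : B) (w : P) (hw : Commute w (act c w)) (ε : ℤˣ), act d w = w ^ ((ε : ℤˣ) : ℤ) →
        act d (w * act c w) = (w * act c w) ^ ((ε : ℤˣ) : ℤ) ∧
        act d (w * (act c w)⁻¹) = (w * (act c w)⁻¹) ^ ((ε : ℤˣ) : ℤ) := by
      intro d w hw ε h
      rw [map_mul, map_mul, map_inv, act_comm act hB2, h, map_zpow, hw.mul_zpow, hw.inv_right.mul_zpow,
        inv_zpow]
      exact ⟨rfl, rfl⟩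
    rcases step act hodd hcen hfix hB2 h1 c with h4 | h4
    · refine ⟨u * act c u, y * act c y, h4, ?_, ?_⟩
      · have h5 := (key b u hu (-1) (by rw [h2, Units.val_neg, Units.val_one, zpow_neg_one])).1
        rw [h5, Units.val_neg, Units.val_one, zpow_neg_one]
      · intro d hd
        rcases Finset.mem_insert.1 hd with rfl | hd
        · refine ⟨1, ?_, ?_⟩
          · rw [map_mul, act_act act hB2, Units.val_one, zpow_one]; exact hu.symm.eq
          · rw [map_mul, act_act act hB2, Units.val_one, zpow_one]; exact hy.symm.eq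
        · obtain ⟨ε, h5, h6⟩ := h3 d hd
          exact ⟨ε, (key d u hu ε h5).1, (key d y hy ε h6).1⟩
    · refine ⟨u * (act c u)⁻¹, y * (act c y)⁻¹, h4, ?_, ?_⟩
      · have h5 := (key b u hu (-1) (by rw [h2, Units.val_neg, Units.val_one, zpow_neg_one])).2
        rw [h5, Units.val_neg, Units.val_one, zpow_neg_one]
      · intro d hd
        rcases Finset.mem_insert.1 hd with rfl | hd
        · refine ⟨-1, ?_, ?_⟩
          · rw [map_mul, map_inv, act_act act hB2, Units.val_neg, Units.val_one, zpow_neg_one, mul_inv_rev, inv_inv]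
          · rw [map_mul, map_inv, act_act act hB2, Units.val_neg, Units.val_one, zpow_neg_one, mul_inv_rev, inv_inv]
        · obtain ⟨ε, h5, h6⟩ := h3 d hd
          exact ⟨ε, (key d u hu ε h5).2, (key d y hy ε h6).2⟩

/-- the weights -/
def IsWt (α : B → ℤˣ) : Prop :=
  ∃ u y : P, ⁅u, y⁆ ≠ 1 ∧ ∀ c, act c u = u ^ ((α c : ℤˣ) : ℤ) ∧ act c y = y ^ ((α c : ℤˣ) : ℤ)

include hodd hcen hfix hB2 in
theorem exists_wt [Finite B] {b : B} {a a' : P} (h : ⁅act b a * a⁻¹, a'⁆ ≠ 1) :
    ∃ α : B → ℤˣ, IsWt act α ∧ α b = -1 := by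
  classical
  have := Fintype.ofFinite B
  obtain ⟨u, y, h1, h2, h3⟩ := exists_pair act hodd hcen hfix hB2 h Finset.univ
  choose α hα using fun c => h3 c (Finset.mem_univ c)
  refine ⟨α, ⟨u, y, h1, hα⟩, ?_⟩
  rcases Int.units_eq_one_or (α b) with h4 | h4
  · exfalso
    have h5 := (hα b).1
    rw [h4, Units.val_one, zpow_one, h2] at h5
    have h6 : u = 1 := hodd u (by conv_lhs => rw [← h5]
                                  exact (by rw [h5]; exact (mul_eq_one_iff_eq_inv.2 h5.symm)))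
    rw [h6, commutatorElement_one_left] at h1
    exact h1 rfl
  · exact h4

include hodd hcen hfix in
theorem orth {α β : B → ℤˣ} (hne : α ≠ β) {u w : P} (hu : ∀ c, act c u = u ^ ((α c : ℤˣ) : ℤ))
    (hw : ∀ c, act c w = w ^ ((β c : ℤˣ) : ℤ)) : Commute u w := by
  refine commutatorElement_eq_one_iff_mul_comm.1 ?_
  obtain ⟨c, hc⟩ := Function.ne_iff.1 hne
  have h1 := c_act act hfix c u w
  rw [hu, hw] at h1
  apply hodd
  rcases Int.units_eq_one_or (α c) with h2 | h2 <;> rcases Int.units_eq_one_or (β c) with h3 | h3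
  · exact absurd (h2.trans h3.symm) hc
  · rw [h2, h3, Units.val_one, zpow_one, Units.val_neg, Units.val_one, zpow_neg_one, c_inv_right hcen] at h1
    exact mul_eq_one_iff_eq_inv.2 h1.symm
  · rw [h2, h3, Units.val_one, zpow_one, Units.val_neg, Units.val_one, zpow_neg_one, c_inv_left hcen] at h1
    exact mul_eq_one_iff_eq_inv.2 h1.symm
  · exact absurd (h2.trans h3.symm) hc

end Abs

end Cfsg.Agent.H557.Free
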