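import Mathlib
import Cfsg.Agent.H557.Free1
import Cfsg.Agent.H557.E1
set_option linter.all false

/-!
# The regular module lemma (part 9F of S4259), linear part
-/

set_option autoImplicit false
set_option linter.unusedSectionVars false
set_option linter.unusedVariables false

namespace Cfsg.Agent.H557.Free

open Module
open scoped commutatorElement

section Op

variable {K : Type*} [Field K] {V : Type*} [AddCommGroup V] [Module K V]

theorem op_apply {Λ : Type*} (X : Λ → Module.End K V) (c e : Λ → K) {w : V} (hw : ∀ a, X a w = e a • w) (l : List Λ) :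
    (l.map (fun a => X a - c a • (1 : Module.End K V))).prod w = (l.map (fun a => e a - c a)).prod • w := by
  induction l with
  | nil => simp
  | cons a l ih =>
    rw [List.map_cons, List.map_cons, List.prod_cons, List.prod_cons, Module.End.mul_apply, ih, map_smul,
      LinearMap.sub_apply, hw, LinearMap.smul_apply, Module.End.one_apply, ← sub_smul, smul_smul, mul_comm]

end Op

section Lin

variable {K : Type*} [Field K] [IsAlgClosed K] {V : Type*} [AddCommGroup V] [Module K V] [FiniteDimensional K V]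
  [Nontrivial V] {P B : Type*} [Group P] [Group B] (act : B →* MulAut P)
  (hodd : ∀ a : P, Odd (orderOf a))
  (hcen : ∀ a a' c : P, ⁅a, a'⁆ * c = c * ⁅a, a'⁆)
  (hfix : ∀ (b : B) (a a' : P), act b ⁅a, a'⁆ = ⁅a, a'⁆)
  (hB2 : ∀ b : B, b * b = 1)
  (ρ : P →* Module.End K V) (ψ : B →* Module.End K V)
  (hψ : ∀ b a v, ψ b (ρ a v) = ρ (act b a) (ψ b v))
  (hsc : ∀ a a' : P, ∃ t : K, ∀ v, ρ ⁅a, a'⁆ v = t • v)
  (hinj : ∀ a a' : P, ρ ⁅a, a'⁆ = 1 → ⁅a, a'⁆ = 1)
  (hf : ∀ b : B, (∀ a a' : P, ⁅act b a * a⁻¹, a'⁆ = 1) → b = 1)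

include hodd in
theorem odd_sq (a : P) (h : a * a = 1) : a = 1 := by
  have h1 : orderOf a ∣ 2 := orderOf_dvd_of_pow_eq_one (by rw [pow_two, h])
  have h2 := hodd a
  rcases (Nat.dvd_prime Nat.prime_two).1 h1 with h3 | h3
  · exact orderOf_eq_one_iff.1 h3
  · rw [h3] at h2
    exact absurd h2 (by decide)

theorem rho_inv_apply (a : P) (v : V) : ρ a⁻¹ (ρ a v) = v := by
  rw [← Module.End.mul_apply, ← map_mul, inv_mul_cancel, map_one, Module.End.one_apply]

theorem rho_ne_zero (a : P) {v : V} (hv : v ≠ 0) : ρ a v ≠ 0 := by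
  intro h
  apply hv
  rw [← rho_inv_apply ρ a v, h, map_zero]

include hodd hcen hfix hB2 hψ hsc hinj hf in
theorem free_core [Fintype B] : ∃ v : V, ∑ b : B, ψ b v ≠ 0 := by
  classical
  have hodd' := odd_sq hodd
  let Λ := {α : B → ℤˣ // IsWt act α}
  have : Fintype Λ := Fintype.ofFinite Λ
  choose x y hxy hact using fun α : Λ => α.2
  have hxx : ∀ α β : Λ, x α * x β = x β * x α := by
    intro α β
    by_cases h : α = β
    · rw [h]
    · exact (orth act hodd' hcen hfix (fun h' => h (Subtype.ext h')) (fun c => (hact α c).1)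
        (fun c => (hact β c).1)).eq
  have hxy' : ∀ α β : Λ, α ≠ β → x α * y β = y β * x α := by
    intro α β h
    exact (orth act hodd' hcen hfix (fun h' => h (Subtype.ext h')) (fun c => (hact α c).1)
        (fun c => (hact β c).2)).eq
  -- a common eigenvector
  let X : Subgroup P := Subgroup.closure (Set.range x)
  have hX : ∀ a b : X, a * b = b * a := by
    have h := Subgroup.isMulCommutative_closure (k := Set.range x) (by
      rintro _ ⟨α, rfl⟩ _ ⟨β, rfl⟩
      exact hxx α β)
    intro a b
    exact mul_comm' a b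
  obtain ⟨v₀, -, hv₀, hev₀⟩ := PartC.exists_common (ρ.comp X.subtype) hX _ (⊤ : Submodule K V) rfl
    (top_ne_bot) (fun c w _ => trivial)
  have h0 : ∃ v : V, v ≠ 0 ∧ ∃ χ : Λ → K, ∀ α, ρ (x α) v = χ α • v := by
    refine ⟨v₀, hv₀, ?_⟩
    choose χ hχ using fun α : Λ => hev₀ ⟨x α, Subgroup.subset_closure ⟨α, rfl⟩⟩
    exact ⟨χ, hχ⟩
  have key : ∀ T : Finset Λ, ∃ v : V, v ≠ 0 ∧ ∃ χ : Λ → K, (∀ α, ρ (x α) v = χ α • v) ∧ ∀ α ∈ T, χ α ≠ 1 := by
    intro T
    induction T using Finset.induction_on with
    | empty =>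
      obtain ⟨v, hv, χ, hχ⟩ := h0
      exact ⟨v, hv, χ, hχ, fun α hα => absurd hα (Finset.notMem_empty α)⟩
    | insert β T hβ ih =>
      obtain ⟨v, hv, χ, hχ, hT⟩ := ih
      by_cases h1 : χ β = 1
      · obtain ⟨t, ht⟩ := hsc (x β) (y β)
        have ht1 : t ≠ 1 := by
          rintro rfl
          apply hxy β
          apply hinj
          ext w
          rw [ht, one_smul, Module.End.one_apply]
        refine ⟨ρ (y β) v, rho_ne_zero ρ _ hv, fun α => if α = β then t else χ α, ?_, ?_⟩
        · intro α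
          beta_reduce
          by_cases h : α = β
          · subst h
            rw [if_pos rfl]
            have h2 : x α * y α = ⁅x α, y α⁆ * (y α * x α) := by
              rw [commutatorElement_def]; group
            rw [← Module.End.mul_apply, ← map_mul, h2, map_mul, Module.End.mul_apply, ht, map_mul,
              Module.End.mul_apply, hχ, h1, one_smul]
          · rw [if_neg h, ← Module.End.mul_apply, ← map_mul, hxy' α β h, map_mul, Module.End.mul_apply, hχ, map_smul]
        · intro α hα
          beta_reduce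
          by_cases h : α = β
          · rw [if_pos h]; exact ht1
          · rw [if_neg h]
            exact hT α ((Finset.mem_insert.1 hα).resolve_left h)
      · refine ⟨v, hv, χ, hχ, fun α hα => ?_⟩
        rcases Finset.mem_insert.1 hα with rfl | h
        · exact h1
        · exact hT α h
  obtain ⟨v, hv, χ, hχ, hne⟩ := key Finset.univ
  have hχ0 : ∀ α, χ α ≠ 0 := by
    intro α h
    have h1 := hχ α
    rw [h, zero_smul] at h1
    exact rho_ne_zero ρ (x α) hv h1
  have hχ2 : ∀ α, χ α ≠ (χ α)⁻¹ := by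
    intro α h
    apply hne α (Finset.mem_univ α)
    have h2 : χ α ^ 2 = 1 := by
      have h3 : (χ α)⁻¹ * χ α = 1 := inv_mul_cancel₀ (hχ0 α)
      rw [← h] at h3
      rw [pow_two, h3]
    have h3 : ∀ n : ℕ, ρ (x α ^ n) v = (χ α) ^ n • v := by
      intro n
      induction n with
      | zero => rw [pow_zero, map_one, Module.End.one_apply, pow_zero, one_smul]
      | succ n ih => rw [pow_succ, map_mul, Module.End.mul_apply, hχ, map_smul, ih, smul_smul, pow_succ, mul_comm]
    have h4 : (χ α) ^ orderOf (x α) = 1 := by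
      have h5 := h3 (orderOf (x α))
      rw [pow_orderOf_eq_one, map_one, Module.End.one_apply] at h5
      refine (smul_left_injective K hv ?_).symm
      show (1 : K) • v = _
      rw [one_smul]; exact h5
    obtain ⟨m, hm⟩ := hodd (x α)
    rw [hm, pow_succ, pow_mul, h2, one_pow, one_mul] at h4
    exact h4
  -- eigenvalues on `b v`
  have hbinv : ∀ b : B, b⁻¹ = b := fun b => inv_eq_of_mul_eq_one_left (hB2 b)
  have heig : ∀ (b : B) (α : Λ), ρ (x α) (ψ b v) = (if α.1 b = 1 then χ α else (χ α)⁻¹) • ψ b v := by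
    intro b α
    have h1 : x α = act b (act b (x α)) := (act_act act hB2 b (x α)).symm
    rw [h1, ← hψ, (hact α b).1]
    rcases Int.units_eq_one_or (α.1 b) with h | h
    · rw [h, Units.val_one, zpow_one, if_pos rfl, hχ, map_smul]
    · rw [h, Units.val_neg, Units.val_one, zpow_neg_one, if_neg (by decide)]
      have h2 : ρ (x α)⁻¹ v = (χ α)⁻¹ • v := by
        have h3 := rho_inv_apply ρ (x α) v
        rw [hχ, map_smul] at h3
        rw [← h3, smul_smul, inv_mul_cancel₀ (hχ0 α), one_smul, h3]
      rw [h2, map_smul]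
  refine ⟨v, fun hsum => ?_⟩
  let l : List Λ := Finset.univ.toList
  have hl : ∀ α : Λ, α ∈ l := fun α => Finset.mem_toList.2 (Finset.mem_univ α)
  have h1 := congrArg (fun w => (l.map (fun α => ρ (x α) - (χ α)⁻¹ • (1 : Module.End K V))).prod w) hsum
  simp only [map_zero, map_sum] at h1
  rw [Finset.sum_eq_single 1] at h1
  · rw [op_apply (fun α => ρ (x α)) (fun α => (χ α)⁻¹) (fun α => if α.1 1 = 1 then χ α else (χ α)⁻¹) (heig 1),
      map_one, Module.End.one_apply] at h1
    rcases smul_eq_zero.1 h1 with h2 | h2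
    · rw [List.prod_eq_zero_iff, List.mem_map] at h2
      obtain ⟨α, -, hα⟩ := h2
      have h3 : α.1 1 = 1 := by
        rcases Int.units_eq_one_or (α.1 1) with h | h
        · exact h
        · exfalso
          have h4 := (hact α 1).1
          rw [h, Units.val_neg, Units.val_one, zpow_neg_one, map_one, MulAut.one_apply] at h4
          have h5 : x α = 1 := hodd' _ (mul_eq_one_iff_eq_inv.2 h4)
          apply hxy α
          rw [h5, commutatorElement_one_left]
      rw [if_pos h3] at hα
      exact hχ2 α (sub_eq_zero.1 hα)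
    · exact hv h2
  · intro b _ hb
    rw [op_apply (fun α => ρ (x α)) (fun α => (χ α)⁻¹) (fun α => if α.1 b = 1 then χ α else (χ α)⁻¹) (heig b)]
    have h2 : ∃ α : Λ, α.1 b = -1 := by
      by_contra hcon
      push Not at hcon
      apply hb
      apply hf
      intro a a'
      by_contra h3
      obtain ⟨α, h4, h5⟩ := exists_wt act hodd' hcen hfix hB2 h3
      exact hcon ⟨α, h4⟩ h5
    obtain ⟨α, hα⟩ := h2
    have h3 : (l.map (fun α => (if α.1 b = 1 then χ α else (χ α)⁻¹) - (χ α)⁻¹)).prod = 0 := by
      rw [List.prod_eq_zero_iff, List.mem_map]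
      exact ⟨α, hl α, by rw [hα, if_neg (by decide), sub_self]⟩
    rw [h3, zero_smul]
  · intro h
    exact absurd (Finset.mem_univ _) h

end Lin

end Cfsg.Agent.H557.Free
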